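import Cfsg.Agent.H995.LB.ChkC_m3
import Cfsg.Agent.BM.StageWRel_m3
import Cfsg.Agent.BabyM.Instance
import Cfsg.Agent.BMx.Bridge
import Cfsg.Agent.FastGrp
import Cfsg.Agent.Prune
set_option linter.all false

section
prune_inst 0x7ffdfffffff8ffffffff7ffffffffffffbfdffffefdffbfbfffffbffffffeb6ffbf7fbbfffffdbfffefff23e3efe7bd3fffffffff3fffd7ffffffff47fffffdfffffbf3f71f7bf7edfff6ffffbfbffefffffffffffffffffffffffffffffffffffbfffffffff

-- part: H995/LB/Elts
section
prune_inst 0x20000000400000000000000000000040000000020040000000000000010800408000000000000010005000000042c000000000000000000000008000000000000400006000001000010000004000000000000000000000000000000000000000000000000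
set_option linter.all false
open scoped Cfsg.Agent.FastGrp

/-!
# `PSL(2, 23)` in the Baby Monster: the elements (helper995, for S5524)
-/

set_option autoImplicit false

namespace Cfsg.Agent.H995.LB

open Subgroup
open Cfsg.Agent.Monster.VecEngine Cfsg.Agent.Monster.VecSpace
open Cfsg.Agent.BabyM.Conc Cfsg.Agent.BabyM.Inst Cfsg.Agent.BabyM.WordsInst
  Cfsg.Agent.BM.StageW Cfsg.Agent.BabyM.TransCover

theorem eq_of_eqc {v w : List Ltr} (h : eqc v w = true) : Wg v = Wg w :=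
  eq_of_chk BabyM.Instance.all BabyM.Instance.ok h

theorem comm_of_eqc {v w : List Ltr} (h : eqc (v ++ w) (w ++ v) = true) : Wg v * Wg w = Wg w * Wg v := by
  have h1 := eq_of_eqc h
  rw [Wg_append, Wg_append] at h1
  exact h1.symm

/-- The element of order `23`. -/
noncomputable def X : M.G := Wg wx

/-- The element of order `11`. -/
noncomputable def P : M.G := Wg [.p]

/-- The involution inverting `P`. -/
noncomputable def D : M.G := Wg wd

/-- The elements of square `1`. -/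
noncomputable def s (i : Fin 26) : M.G := Wg (sw (Sw i))

/-- The central involution of the involution centralizer. -/
noncomputable def Z : M.G := Wg [.z]

theorem sw_cons (n : ℕ) (l : List ℕ) : sw (n :: l) = sg n ++ sw l := rfl

theorem sw_nil : sw [] = [] := rfl

theorem sw_comm {g : M.G} (h : ∀ n, Wg (sg n) * g = g * Wg (sg n)) (l : List ℕ) :
    Wg (sw l) * g = g * Wg (sw l) := by
  induction l with
  | nil => rw [sw_nil, Wg_nil, one_mul, mul_one]
  | cons n l ih => rw [sw_cons, Wg_append, mul_assoc, h, ← mul_assoc, ih, mul_assoc]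

theorem taui_eq : Wg [.taui] = (Wg [.tau])⁻¹ := by
  have h := eq_of_eqc e_taui
  rw [Wg_append, Wg_nil] at h
  exact eq_inv_of_mul_eq_one_left h

theorem sg_P : ∀ n, Wg (sg n) * P = P * Wg (sg n)
  | 0 => (comm_of_eqc a_px0).symm
  | 1 => (comm_of_eqc a_pz0).symm
  | 2 => (comm_of_eqc a_pt).symm
  | 3 => by
    show Wg [.taui] * P = P * Wg [.taui]
    rw [taui_eq]
    exact (Commute.inv_left (comm_of_eqc a_pt).symm : Commute _ _)
  | 4 => (comm_of_eqc a_pz).symm
  | _ + 5 => (comm_of_eqc a_pT).symm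

theorem sg_D : ∀ n, Wg (sg n) * D = D * Wg (sg n)
  | 0 => (comm_of_eqc a_dx0).symm
  | 1 => (comm_of_eqc a_dz0).symm
  | 2 => (comm_of_eqc a_dt).symm
  | 3 => by
    show Wg [.taui] * D = D * Wg [.taui]
    rw [taui_eq]
    exact (Commute.inv_left (comm_of_eqc a_dt).symm : Commute _ _)
  | 4 => (comm_of_eqc a_dz).symm
  | _ + 5 => (comm_of_eqc a_dT).symm

theorem s_P (i : Fin 26) : s i * P = P * s i := sw_comm sg_P _

theorem s_D (i : Fin 26) : s i * D = D * s i := sw_comm sg_D _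

theorem s_sq_small (i : Fin 26) (hi : i.1 < 10) : s i * s i = 1 := by
  rcases b_sq i with h | h
  · exact absurd hi (Nat.not_lt.2 h)
  · have h1 := eq_of_eqc h
    rw [Wg_append, Wg_nil] at h1
    exact h1

theorem T_comm (j : Fin 26) (hj : j = 0 ∨ j = 1 ∨ j = 4 ∨ j = 5) : Commute (Wg wT) (s j) := by
  have h0 : Commute (Wg wT) (Wg [Ltr.X10]) := comm_of_eqc b_T0
  have h2 : Commute (Wg wT) (Wg [Ltr.tau]) := comm_of_eqc b_Tt
  rcases hj with rfl | rfl | rfl | rfl
  · show Commute (Wg wT) (Wg [])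
    rw [Wg_nil]
    exact Commute.one_right _
  · exact h0
  · show Commute (Wg wT) (Wg ([Ltr.X10] ++ [Ltr.tau]))
    rw [Wg_append]
    exact h2.mul_right h0
  · show Commute (Wg wT) (Wg ([Ltr.X10] ++ [Ltr.taui]))
    rw [Wg_append, taui_eq]
    exact h2.inv_right.mul_right h0

theorem s_sq (i : Fin 26) : s i * s i = 1 := by
  rcases b_dec i with h | ⟨h, hd⟩
  · exact s_sq_small i h
  · have h1 : sw (Sw i) = sw (Sa i) ++ (wT ++ sw (Sb i)) := by
      rw [h]
      exact List.flatMap_append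
    have h2 : s i = Wg (sw (Sb i)) * Wg wT * Wg (sw (Sa i)) := by
      show Wg (sw (Sw i)) = _
      rw [h1, Wg_append, Wg_append]
    have h3 : Wg (sw (Sa i)) * Wg (sw (Sb i)) = s (Sd i) := by
      rw [← Wg_append]
      exact eq_of_eqc (b_prod i)
    have h4 : s (Sd i) * s (Sd i) = 1 := s_sq_small _ (by rcases hd with h | h | h | h <;> rw [h] <;> decide)
    have h5 : Wg wT * Wg wT = 1 := by
      have h6 := eq_of_eqc b_TT
      rwa [Wg_append, Wg_nil] at h6
    have h7 : Wg wT * s (Sd i) = s (Sd i) * Wg wT := T_comm _ hd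
    rw [h2]
    generalize Wg (sw (Sa i)) = A at h3 ⊢
    generalize Wg (sw (Sb i)) = B at h3 ⊢
    generalize Wg wT = T at h5 h7 ⊢
    generalize s (Sd i) = C at h3 h4 h7
    have h8 : B = A⁻¹ * C := eq_inv_mul_of_mul_eq h3
    calc B * T * A * (B * T * A) = B * (T * (A * B)) * (T * A) := by simp only [mul_assoc]
      _ = A⁻¹ * (C * C) * (T * T) * A := by rw [h3, h7, h8]; simp only [mul_assoc]
      _ = 1 := by rw [h4, h5, mul_one, mul_one, inv_mul_cancel]

theorem Z_P : Z * P = P * Z := (comm_of_eqc a_pz).symm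

theorem Z_D : Z * D = D * Z := (comm_of_eqc a_dz).symm

theorem Z_X : Z * X = X * Z := (comm_of_eqc a_zx).symm

theorem Z_sq : Z * Z = 1 := by
  have h := eq_of_eqc a_zz
  rw [Wg_append, Wg_nil] at h
  exact h

theorem D_sq : D * D = 1 := by
  have h := eq_of_eqc a_dd
  rw [Wg_append, Wg_nil] at h
  exact h

theorem rep_p (n : ℕ) : Wg (List.replicate n .p) = P ^ n := by
  induction n with
  | zero => rw [List.replicate_zero, Wg_nil, pow_zero]
  | succ n ih =>
    rw [List.replicate_succ, show (Ltr.p :: List.replicate n .p) = [.p] ++ List.replicate n .p from rfl, Wg_append, ih,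
      pow_succ]
    rfl

theorem P11 : P ^ 11 = 1 := by
  rw [← rep_p, eq_of_eqc e_p11, Wg_nil]

theorem pj_eq (j : Fin 11) : Wg (pj j) = P ^ j.1 := by
  rw [← rep_p, eq_of_eqc (e_pj j)]

theorem Pinv : Wg [.p10] = P⁻¹ := by
  rw [eq_inv_iff_mul_eq_one, show Wg [.p10] = P ^ 10 from pj_eq 10, ← pow_succ, P11]

theorem P3X : P ^ 3 * X * (P ^ 3)⁻¹ = X ^ 2 := by
  have h := eq_of_eqc a_x2
  rw [Wg_append, Wg_append, Wg_append, show Wg [Ltr.p3] = P ^ 3 from pj_eq 3,
    show Wg [Ltr.p8] = P ^ 8 from pj_eq 8] at h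
  have h1 : (P ^ 3)⁻¹ = P ^ 8 := inv_eq_of_mul_eq_one_right (by rw [← pow_add, P11])
  rw [h1, mul_assoc, pow_two]
  exact h

theorem P2X : P ^ 2 * X * (P ^ 2)⁻¹ = X ^ 3 := by
  have h := eq_of_eqc a_x3
  rw [Wg_append, Wg_append, Wg_append, Wg_append, show Wg [Ltr.p2] = P ^ 2 from pj_eq 2,
    show Wg [Ltr.p9] = P ^ 9 from pj_eq 9] at h
  have h1 : (P ^ 2)⁻¹ = P ^ 9 := inv_eq_of_mul_eq_one_right (by rw [← pow_add, P11])
  rw [h1, mul_assoc, pow_succ' X 2, pow_two X]
  exact h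

theorem P3kX (k : ℕ) : (P ^ 3) ^ k * X * ((P ^ 3) ^ k)⁻¹ = X ^ 2 ^ k := by
  induction k with
  | zero => rw [pow_zero, pow_zero, pow_one, one_mul, inv_one, mul_one]
  | succ k ih =>
    rw [pow_succ 2 k, pow_mul, ← ih, conj_pow, ← P3X, pow_succ (P ^ 3) k, mul_inv_rev]
    simp only [mul_assoc]

theorem X23 : X ^ 23 = 1 := by
  have h1 := P3kX 11
  have h2 := P3kX 8
  rw [← pow_mul, mul_comm 3 11, pow_mul, P11, one_pow, one_mul, inv_one, mul_one] at h1
  rw [← pow_mul, show 3 * 8 = 11 * 2 + 2 from rfl, pow_add, pow_mul, P11, one_pow, one_mul, P2X] at h2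
  have h3 : X ^ 2047 = 1 := by
    have h5 : X ^ 2047 * X = X := by rw [← pow_succ]; exact h1.symm
    exact mul_eq_right.1 h5
  have h4 : X ^ 253 = 1 := by
    have h5 : X ^ 253 * X ^ 3 = X ^ 3 := by rw [← pow_add]; exact h2.symm
    exact mul_eq_right.1 h5
  exact orderOf_dvd_iff_pow_eq_one.1
    (Nat.dvd_gcd (orderOf_dvd_of_pow_eq_one h3) (orderOf_dvd_of_pow_eq_one h4) : orderOf X ∣ Nat.gcd 2047 253)

theorem PX : P * X * P⁻¹ = X ^ 16 := by
  have h := P3kX 4
  rw [← pow_mul, show 3 * 4 = 11 + 1 from rfl, pow_add, P11, one_mul, pow_one] at h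
  exact h

theorem DPD : D * P * D = P⁻¹ := by
  have h := eq_of_eqc a_dpd
  rw [Wg_append, Wg_append, Pinv] at h
  rw [mul_assoc]
  exact h

/-- the good triple -/
theorem rel25 : Rel X P (D * s 25) where
  x23 := X23
  y11 := P11
  yx := PX
  t2 := by
    calc D * s 25 * (D * s 25) = D * (s 25 * D) * s 25 := by simp only [mul_assoc]
      _ = (D * D) * (s 25 * s 25) := by rw [s_D]; simp only [mul_assoc]
      _ = 1 := by rw [D_sq, s_sq, one_mul]
  ty := by
    calc D * s 25 * P * (D * s 25) = D * (s 25 * P) * (D * s 25) := by simp only [mul_assoc]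
      _ = D * P * (s 25 * D) * s 25 := by rw [s_P]; simp only [mul_assoc]
      _ = D * P * D * (s 25 * s 25) := by rw [s_D]; simp only [mul_assoc]
      _ = P⁻¹ := by rw [DPD, s_sq, mul_one]
  xt := by
    have h := eq_of_eqc a_xt
    simp only [Wg_append, Wg_nil] at h
    have h1 : X * (D * s 25) * (X * (D * s 25)) * (X * (D * s 25)) = 1 := by
      simp only [mul_assoc] at h ⊢
      exact h
    rw [pow_succ, pow_two]
    exact h1

theorem s20 : s 20 = Z * s 25 * Z := by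
  have h := eq_of_eqc a_good
  rw [Wg_append, Wg_append] at h
  rw [mul_assoc]
  exact h.symm

/-- the root of the good element -/
noncomputable def r25 : M.G := Wg (sw [1, 2, 5])

theorem r25_sq : r25 * r25 = s 25 := by
  have h := eq_of_eqc a_root
  rw [Wg_append] at h
  exact h

theorem r25_P : r25 * P = P * r25 := sw_comm sg_P _

/-! ### Soundness of the tests -/

theorem vecU_apply (x : Pl) (l : ℕ) (hl : U.testBit l = true) : vecU ℚ U x ⟨l, hl⟩ = (val x l : ℚ) := rfl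

theorem ne_of_val {x y : Pl} {l : ℕ} (hl : U.testBit l = true) (h : val x l ≠ val y l) :
    vecU ℚ U x ≠ vecU ℚ U y := by
  intro he
  have h1 := congrFun he ⟨l, hl⟩
  rw [vecU_apply, vecU_apply] at h1
  exact h (by exact_mod_cast h1)

theorem k6_sound {u : List ℕ} {L : List (Fin 11 × ℕ)} (h : k6 u L = true) {q : Fin 11 × ℕ} (hq : q ∈ L) :
    W (pj q.1) (W (wxi ++ sw u ++ wd) (W (sw u ++ wd) (vecU ℚ U vf))) ≠
      W wx (W (sw u ++ wd) (vecU ℚ U vf)) := by
  unfold k6 at h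
  obtain ⟨w, hw, h1⟩ := W_run h
  obtain ⟨a, ha, h2⟩ := W_run h1
  obtain ⟨v, hv, h3⟩ := W_run h2
  have h4 := List.all_eq_true.1 h3 q hq
  rw [Bool.and_eq_true] at h4
  obtain ⟨y, hy, h5⟩ := W_run h4.2
  rw [← hw, ← ha, ← hv, ← hy]
  rw [Bool.not_eq_true', decide_eq_false_iff_not] at h5
  exact ne_of_val h4.1 h5

theorem k7_sound {u : List ℕ} {l : ℕ} (h : k7 u l = true) :
    W wx (W (sw u) (vecU ℚ U vg)) ≠ W (sw u) (vecU ℚ U vg) := by
  unfold k7 at h
  rw [Bool.and_eq_true] at h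
  obtain ⟨a, ha, h1⟩ := W_run h.2
  obtain ⟨b, hb, h2⟩ := W_run h1
  rw [← ha, ← hb]
  rw [Bool.not_eq_true', decide_eq_false_iff_not] at h2
  exact ne_of_val h.1 h2

theorem k5_sound {u : List ℕ} {c : List ℤ} (h : k5 u c = true) :
    ∃ y : Pl, vecU ℚ U y = W (sw u) (vecU ℚ U vB) ∧ code y = c := by
  unfold k5 at h
  obtain ⟨a, ha, h1⟩ := W_run h
  exact ⟨a, ha, of_decide_eq_true h1⟩

theorem testBits : U.testBit 1313 = true ∧ U.testBit 2048 = true ∧ U.testBit 2162 = true ∧ U.testBit 4096 = true ∧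
    U.testBit 5120 = true ∧ U.testBit 5234 = true := by decide +kernel

theorem code_congr {x y : Pl} (h : vecU ℚ U x = vecU ℚ U y) : code x = code y := by
  have key : ∀ l, U.testBit l = true → val x l = val y l := by
    intro l hl
    by_contra hne
    exact ne_of_val hl hne h
  obtain ⟨h1, h2, h3, h4, h5, h6⟩ := testBits
  unfold code
  rw [key _ h1, key _ h2, key _ h3, key _ h4, key _ h5, key _ h6]

theorem s_inj : Function.Injective s := by
  intro i j hij
  obtain ⟨x, hx, hcx⟩ := k5_sound (b_code i)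
  obtain ⟨y, hy, hcy⟩ := k5_sound (b_code j)
  have h1 : W (sw (Sw i)) = W (sw (Sw j)) := congrArg Subtype.val hij
  rw [h1, ← hy] at hx
  exact b_inj i j (by rw [← hcx, ← hcy, code_congr hx])

/-- the action on vectors -/
theorem Wg_apply (v : List Ltr) (f : V) : (Wg v : V ≃ₗ[ℚ] V) f = W v f := rfl

theorem fixf_X : (X : V ≃ₗ[ℚ] V) (vecU ℚ U vf) = vecU ℚ U vf := W_fix_of_check d_fixf

theorem fixf_P : (P : V ≃ₗ[ℚ] V) (vecU ℚ U vf) = vecU ℚ U vf := W_fix_of_check d_fixf'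

theorem fixg_X : (X : V ≃ₗ[ℚ] V) (vecU ℚ U vg) = vecU ℚ U vg := W_fix_of_check d_fixg

theorem Xinv : Wg wxi = X⁻¹ := by
  have h := eq_of_eqc a_xxi
  rw [Wg_append, Wg_nil] at h
  exact eq_inv_of_mul_eq_one_left h

theorem coe_mul_apply (a b : M.G) (f : V) : ((a * b : M.G) : V ≃ₗ[ℚ] V) f = (a : V ≃ₗ[ℚ] V) ((b : V ≃ₗ[ℚ] V) f) := rfl

theorem fix_inv {a : M.G} {f : V} (h : (a : V ≃ₗ[ℚ] V) f = f) : ((a⁻¹ : M.G) : V ≃ₗ[ℚ] V) f = f := by
  have h1 : ((a⁻¹ : M.G) : V ≃ₗ[ℚ] V) ((a : V ≃ₗ[ℚ] V) f) = f := by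
    rw [← coe_mul_apply, inv_mul_cancel]
    rfl
  rwa [h] at h1

/-- **the main test** -/
theorem main_test (i : Fin 26) (j : ℕ) (hj : j < 11) (h : (X * (P ^ j * D * s i)) ^ 3 = 1) :
    (i = 20 ∨ i = 25) ∧ j = 0 := by
  rcases c_cover i ⟨j, hj⟩ with hc | ⟨q, hq, hqj⟩
  · exact ⟨hc.1, congrArg Fin.val hc.2⟩
  · exfalso
    apply k6_sound (c_main i) hq
    -- everything in the group
    have hP : ∀ n : ℕ, ((P ^ n : M.G) : V ≃ₗ[ℚ] V) (vecU ℚ U vf) = vecU ℚ U vf := by
      intro n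
      induction n with
      | zero => rfl
      | succ n ih => rw [pow_succ, coe_mul_apply, fixf_P, ih]
    have hj2 : P ^ j * P ^ (11 - j) = 1 := by
      rw [← pow_add, show j + (11 - j) = 11 by omega, P11]
    have e1 : W (sw (Sw i) ++ wd) (vecU ℚ U vf) = ((D * s i : M.G) : V ≃ₗ[ℚ] V) (vecU ℚ U vf) := by
      rw [← Wg_apply, Wg_append]; rfl
    have e2 : ∀ f, W (wxi ++ sw (Sw i) ++ wd) f = ((D * s i * X⁻¹ : M.G) : V ≃ₗ[ℚ] V) f := by
      intro f
      rw [← Wg_apply, Wg_append, Wg_append, Xinv, mul_assoc]; rfl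
    have e3 : ∀ f, W (pj q.1) f = ((P ^ j : M.G) : V ≃ₗ[ℚ] V) f := by
      intro f
      rw [← Wg_apply, pj_eq, hqj]
    rw [e1, e2, e3]
    show _ = (X : V ≃ₗ[ℚ] V) _
    -- `t f = d s f`
    have ht : ((P ^ j * D * s i : M.G) : V ≃ₗ[ℚ] V) (vecU ℚ U vf) = ((D * s i : M.G) : V ≃ₗ[ℚ] V) (vecU ℚ U vf) := by
      have h1 : P ^ j * D * s i = D * s i * (P ^ j)⁻¹ := by
        have h2 : P ^ j * D = D * (P ^ j)⁻¹ := by
          have h3 : (D * P * D) ^ j = (P ^ j)⁻¹ := by rw [DPD, inv_pow]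
          have h4 : (D * P * D) ^ j = D * P ^ j * D := by
            have h5 : D⁻¹ = D := inv_eq_of_mul_eq_one_left D_sq
            have h6 := conj_pow (i := j) (a := D) (b := P)
            rwa [h5] at h6
          rw [← h3, h4, ← mul_assoc, ← mul_assoc, D_sq, one_mul]
        have h7 : (P ^ j)⁻¹ * s i = s i * (P ^ j)⁻¹ :=
          ((Commute.pow_right (s_P i) j).inv_right).symm
        rw [h2, mul_assoc, h7, mul_assoc]
      rw [h1, coe_mul_apply, fix_inv (hP j)]
    have h1 : P ^ j * D * s i * X⁻¹ * (P ^ j * D * s i) = X * (P ^ j * D * s i) * X := by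
      set t := P ^ j * D * s i with ht'
      have htt : t * t = 1 := by
        have h2 : D * P ^ j * D = (P ^ j)⁻¹ := by
          have h3 : (D * P * D) ^ j = (P ^ j)⁻¹ := by rw [DPD, inv_pow]
          have h4 : (D * P * D) ^ j = D * P ^ j * D := by
            have h5 : D⁻¹ = D := inv_eq_of_mul_eq_one_left D_sq
            have h6 := conj_pow (i := j) (a := D) (b := P)
            rwa [h5] at h6
          rw [← h3, h4]
        have h7 : s i * P ^ j = P ^ j * s i := Commute.pow_right (s_P i) j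
        calc t * t = P ^ j * D * (s i * P ^ j) * (D * s i) := by rw [ht']; simp only [mul_assoc]
          _ = P ^ j * (D * P ^ j) * (s i * D) * s i := by rw [h7]; simp only [mul_assoc]
          _ = P ^ j * (D * P ^ j * D) * (s i * s i) := by rw [s_D]; simp only [mul_assoc]
          _ = 1 := by rw [h2, mul_inv_cancel, s_sq, one_mul]
      have hti : t⁻¹ = t := inv_eq_of_mul_eq_one_left htt
      have h3 : X * t * (X * t) * (X * t) = 1 := by
        rw [pow_succ, pow_two] at h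
        exact h
      have h4 : X * t * (X * t) = t * X⁻¹ := by
        rw [eq_inv_of_mul_eq_one_left h3, mul_inv_rev, hti]
      rw [← h4, mul_assoc, mul_assoc X t t, htt, mul_one]
    have h2 : ((P ^ j : M.G) : V ≃ₗ[ℚ] V) (((D * s i * X⁻¹ : M.G) : V ≃ₗ[ℚ] V)
        (((D * s i : M.G) : V ≃ₗ[ℚ] V) (vecU ℚ U vf))) =
        ((P ^ j * D * s i * X⁻¹ * (P ^ j * D * s i) : M.G) : V ≃ₗ[ℚ] V) (vecU ℚ U vf) := by
      rw [coe_mul_apply (P ^ j * D * s i * X⁻¹), ht, ← coe_mul_apply (P ^ j)]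
      simp only [mul_assoc]
    rw [h2, h1, coe_mul_apply, fixf_X, coe_mul_apply, ht]

end Cfsg.Agent.H995.LB
end

-- part: H995/LB/Conc
section
prune_inst 0x2000000000000000000000000000000000000000000000000000081000000000000000000000000000000000000000000000008000000000000000000001000000000000000000000000000000000000000000000
set_option linter.all false
open scoped Cfsg.Agent.FastGrp

/-!
# `PSL(2, 23)` in the Baby Monster: one class, self-normalising (helper995, for S5524)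
-/

set_option autoImplicit false

namespace Cfsg.Agent.H995.LB

open Subgroup
open Cfsg.Agent.Monster.VecEngine Cfsg.Agent.Monster.VecSpace
open Cfsg.Agent.BabyM.Conc Cfsg.Agent.BabyM.Inst Cfsg.Agent.BabyM.WordsInst
  Cfsg.Agent.BM.StageW Cfsg.Agent.BabyM.TransCover

/-- There are `26` elements of square `1` in `S₅`. -/
theorem card_sq : Fintype.card {σ : Equiv.Perm (Fin 5) // σ * σ = 1} = 26 := by decide +kernel

private def ap (c x : ℕ) : ℕ := c / 8 ^ x % 8

private def cd (ρ : Equiv.Perm (Fin 5)) : ℕ :=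
  (ρ 0).1 + 8 * ((ρ 1).1 + 8 * ((ρ 2).1 + 8 * ((ρ 3).1 + 8 * (ρ 4).1)))

private theorem ap_cd (ρ : Equiv.Perm (Fin 5)) (x : Fin 5) : ap (cd ρ) x.1 = (ρ x).1 := by
  have h0 := (ρ 0).2
  have h1 := (ρ 1).2
  have h2 := (ρ 2).2
  have h3 := (ρ 3).2
  have h4 := (ρ 4).2
  fin_cases x
  · show ((ρ 0).1 + 8 * ((ρ 1).1 + 8 * ((ρ 2).1 + 8 * ((ρ 3).1 + 8 * (ρ 4).1)))) / 1 % 8 = (ρ 0).1
    omega
  · show ((ρ 0).1 + 8 * ((ρ 1).1 + 8 * ((ρ 2).1 + 8 * ((ρ 3).1 + 8 * (ρ 4).1)))) / 8 % 8 = (ρ 1).1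
    omega
  · show ((ρ 0).1 + 8 * ((ρ 1).1 + 8 * ((ρ 2).1 + 8 * ((ρ 3).1 + 8 * (ρ 4).1)))) / 64 % 8 = (ρ 2).1
    omega
  · show ((ρ 0).1 + 8 * ((ρ 1).1 + 8 * ((ρ 2).1 + 8 * ((ρ 3).1 + 8 * (ρ 4).1)))) / 512 % 8 = (ρ 3).1
    omega
  · show ((ρ 0).1 + 8 * ((ρ 1).1 + 8 * ((ρ 2).1 + 8 * ((ρ 3).1 + 8 * (ρ 4).1)))) / 4096 % 8 = (ρ 4).1
    omega

private def cdL : List ℕ := [668, 675, 724, 738, 787, 794, 1116, 1123, 1228, 1249, 1291, 1305, 1620, 1634, 1676,
  1697, 1802, 1809, 2131, 2138, 2187, 2201, 2250, 2257, 4252, 4259, 4308, 4322, 4371, 4378,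
  5148, 5155, 5316, 5344, 5379, 5400, 5652, 5666, 5764, 5792, 5890, 5904, 6163, 6170, 6275,
  6296, 6338, 6352, 8284, 8291, 8396, 8417, 8459, 8473, 8732, 8739, 8900, 8928, 8963, 8984,
  9740, 9761, 9796, 9824, 9985, 9992, 10251, 10265, 10307, 10328, 10433, 10440, 12372, 12386, 12428,
  12449, 12554, 12561, 12820, 12834, 12932, 12960, 13058, 13072, 13324, 13345, 13380, 13408, 13569, 13576,
  14346, 14353, 14402, 14416, 14465, 14472, 16467, 16474, 16523, 16537, 16586, 16593, 16915, 16922, 17027,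
  17048, 17090, 17104, 17419, 17433, 17475, 17496, 17601, 17608, 17930, 17937, 17986, 18000, 18049, 18056]

private theorem cd_mem : ∀ ρ : Equiv.Perm (Fin 5), cd ρ ∈ cdL := by decide +kernel

private theorem cd_chk : ∀ r ∈ cdL, (∀ x : Fin 5, ap r (ap r x.1) = x.1) ∨
    (¬ ∀ x : Fin 5, ap r (ap r (ap r (ap r x.1))) = x.1) ∨ ∀ t ∈ cdL,
      (¬ ∀ x : Fin 5, ap t (ap r (ap r x.1)) = ap r (ap r (ap t x.1))) ∨
        ∀ x : Fin 5, ap t (ap t (ap t (ap t x.1))) = x.1 := by decide +kernel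

theorem perm_four : ∀ ρ : Equiv.Perm (Fin 5), ρ * ρ ≠ 1 → ρ * ρ * (ρ * ρ) = 1 →
    ∀ τ : Equiv.Perm (Fin 5), τ * (ρ * ρ) = ρ * ρ * τ → τ * τ * (τ * τ) = 1 := by
  intro ρ h1 h2 τ h3
  rcases cd_chk _ (cd_mem ρ) with h | h | h
  · refine absurd (Equiv.ext fun x => Fin.ext ?_) h1
    have h4 := h x
    rwa [ap_cd, ap_cd] at h4
  · refine absurd (fun x => ?_) h
    rw [ap_cd, ap_cd, ap_cd, ap_cd]
    exact congrArg Fin.val (Equiv.congr_fun h2 x)
  · rcases h _ (cd_mem τ) with h4 | h4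
    · refine absurd (fun x => ?_) h4
      rw [ap_cd ρ x, ap_cd ρ, ap_cd τ, ap_cd τ x, ap_cd ρ, ap_cd ρ]
      exact congrArg Fin.val (Equiv.congr_fun h3 x)
    · refine Equiv.ext fun x => Fin.ext ?_
      have h5 := h4 x
      rwa [ap_cd, ap_cd, ap_cd, ap_cd] at h5

theorem X_ne : X ≠ 1 := by
  intro h
  have h1 : k7 (Sw 1) (Sn 1) = true := by
    rcases d_norm 1 with h | h | h
    · exact absurd h (by decide)
    · exact absurd h (by decide)
    · exact h
  apply k7_sound h1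
  have h2 : W wx = 1 := congrArg Subtype.val h
  rw [h2]
  rfl

theorem s0 : s 0 = 1 := Wg_nil

theorem s3 : s 3 = Z := rfl

section

variable {K : Subgroup M.G} (e : K ≃* Equiv.Perm (Fin 5)) (hK : ∀ k ∈ K, k * P = P * k)
  (hc : ∀ g : M.G, g * P = P * g → ∃ k ∈ K, ∃ n : ℕ, g = P ^ n * k)

include e

theorem card_K : Nat.card K = 120 := by
  rw [Nat.card_congr e.toEquiv, Nat.card_eq_fintype_card, Fintype.card_perm, Fintype.card_fin]
  rfl

theorem P_pow_of_mem {n : ℕ} (h : P ^ n ∈ K) : P ^ n = 1 := by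
  rw [← orderOf_eq_one_iff]
  have hcop : Nat.Coprime (Nat.card K) 11 := by rw [card_K e]; decide
  apply Nat.eq_one_of_dvd_coprimes hcop
  · rw [← Subgroup.orderOf_mk _ h]
    exact orderOf_dvd_natCard _
  · apply orderOf_dvd_of_pow_eq_one
    rw [← pow_mul, mul_comm, pow_mul, P11, one_pow]

include hK hc

theorem mem_K {g : M.G} (hg : g * P = P * g) (h2 : g * g ∈ K) : g ∈ K := by
  obtain ⟨k, hk, n, rfl⟩ := hc g hg
  have hkP : k * P ^ n = P ^ n * k := Commute.pow_right (hK k hk) n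
  have h3 : P ^ n * k * (P ^ n * k) = P ^ (n + n) * (k * k) := by
    calc P ^ n * k * (P ^ n * k) = P ^ n * (k * P ^ n) * k := by simp only [mul_assoc]
      _ = P ^ n * P ^ n * (k * k) := by rw [hkP]; simp only [mul_assoc]
      _ = _ := by rw [← pow_add]
  rw [h3] at h2
  have h4 : P ^ (n + n) ∈ K := (mul_mem_cancel_right (mul_mem hk hk)).1 h2
  have h5 := P_pow_of_mem e h4
  have h6 : P ^ n = 1 := by
    have h7 : P ^ (12 * n) = P ^ n := by
      rw [show 12 * n = 11 * n + n by ring, pow_add, pow_mul, P11, one_pow, one_mul]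
    rw [← h7, show 12 * n = (n + n) * 6 by ring, pow_mul, h5, one_pow]
  rw [h6, one_mul]
  exact hk

theorem s_mem (i : Fin 26) : s i ∈ K := mem_K e hK hc (s_P i) (by rw [s_sq]; exact K.one_mem)

/-- every element of square `1` is in the list -/
theorem exists_s {k : M.G} (hk : k ∈ K) (hkk : k * k = 1) : ∃ i, k = s i := by
  have hsub : ∀ (a : M.G) (ha : a ∈ K), a * a = 1 → e ⟨a, ha⟩ * e ⟨a, ha⟩ = 1 := by
    intro a ha h2
    rw [← map_mul, show (⟨a, ha⟩ : K) * ⟨a, ha⟩ = 1 from Subtype.ext h2, map_one]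
  let f : Fin 26 → {σ : Equiv.Perm (Fin 5) // σ * σ = 1} := fun i =>
    ⟨e ⟨s i, s_mem e hK hc i⟩, hsub _ _ (s_sq i)⟩
  have hinj : Function.Injective f := by
    intro i j hij
    have h1 : e ⟨s i, s_mem e hK hc i⟩ = e ⟨s j, s_mem e hK hc j⟩ := congrArg Subtype.val hij
    exact s_inj (congrArg Subtype.val (e.injective h1))
  have hbij : Function.Bijective f :=
    (Fintype.bijective_iff_injective_and_card f).2 ⟨hinj, by rw [card_sq, Fintype.card_fin]⟩
  obtain ⟨i, hi⟩ := hbij.2 ⟨e ⟨k, hk⟩, hsub k hk hkk⟩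
  have h1 : e ⟨s i, s_mem e hK hc i⟩ = e ⟨k, hk⟩ := congrArg Subtype.val hi
  exact ⟨i, (congrArg Subtype.val (e.injective h1)).symm⟩

theorem kd {k : M.G} (hk : k ∈ K) : k * D = D * k := by
  have key : ∀ σ : Equiv.Perm (Fin 5), ((e.symm σ : K) : M.G) * D = D * ((e.symm σ : K) : M.G) := by
    intro σ
    induction σ using Equiv.Perm.swap_induction_on with
    | one => rw [map_one, OneMemClass.coe_one, one_mul, mul_one]
    | swap_mul f x y hxy ih =>
      have h1 : ((e.symm (Equiv.swap x y) : K) : M.G) * ((e.symm (Equiv.swap x y) : K) : M.G) = 1 := by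
        rw [← Subgroup.coe_mul, ← map_mul, Equiv.swap_mul_self, map_one, OneMemClass.coe_one]
      obtain ⟨i, hi⟩ := exists_s e hK hc (e.symm (Equiv.swap x y)).2 h1
      rw [map_mul, Subgroup.coe_mul, hi, mul_assoc, ih, ← mul_assoc, s_D, mul_assoc]
  have h1 := key (e ⟨k, hk⟩)
  rwa [e.symm_apply_apply] at h1

theorem conf : Conf X P D K where
  x23 := X23
  x_ne := X_ne
  y11 := P11
  yx := PX
  dd := D_sq
  dy := DPD
  kP := hK
  kd := fun _ hk => kd e hK hc hk
  cent := hc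
  cop := by rw [card_K e]; decide

/-- **One class.** -/
theorem conj_H (h11 : ¬ 11 ^ 2 ∣ Nat.card M.G) (h23 : ¬ 23 ^ 2 ∣ Nat.card M.G) (hfin : Finite M.G) {x y t : M.G}
    (h : Rel x y t) (hx : x ≠ 1) :
    ∃ g : M.G, (closure {x, y, t}).map (MulAut.conj g).toMonoidHom = closure {X, P, D * s 25} := by
  obtain ⟨g, k, hk, hkk, j, hj, h3, hm⟩ := (conf e hK hc).red h11 h23 h hx
  obtain ⟨i, rfl⟩ := exists_s e hK hc hk hkk
  obtain ⟨hi, rfl⟩ := main_test i j hj h3
  rw [pow_zero, one_mul] at hm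
  rcases hi with rfl | rfl
  · refine ⟨Z * g, ?_⟩
    rw [map_conj_mul, hm, map_conj_closure]
    have hZ : Z⁻¹ = Z := inv_eq_of_mul_eq_one_left Z_sq
    have e1 : Z * X * Z⁻¹ = X := by rw [Z_X, mul_inv_cancel_right]
    have e2 : Z * P * Z⁻¹ = P := by rw [Z_P, mul_inv_cancel_right]
    have e3 : Z * (D * s 20) * Z⁻¹ = D * s 25 := by
      rw [hZ, s20]
      calc Z * (D * (Z * s 25 * Z)) * Z = (Z * D) * Z * s 25 * (Z * Z) := by simp only [mul_assoc]
        _ = D * (Z * Z) * s 25 * (Z * Z) := by rw [Z_D]; simp only [mul_assoc]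
        _ = D * s 25 := by rw [Z_sq, mul_one, mul_one]
    rw [e1, e2, e3]
  · exact ⟨g, hm⟩

/-- **Self-normalising.** -/
theorem norm_H (h11 : ¬ 11 ^ 2 ∣ Nat.card M.G) (h23 : ¬ 23 ^ 2 ∣ Nat.card M.G) (hfin : Finite M.G) :
    normalizer (closure {X, P, D * s 25} : Set M.G) = closure {X, P, D * s 25} := by
  refine (conf e hK hc).normalizer_eq h11 h23 (s_mem e hK hc 25) rel25 (card_closure rel25 X_ne) ?_
  -- involutions
  have key : ∀ k ∈ K, k * s 25 = s 25 * k → k ∈ normalizer (zpowers X : Set M.G) → k * k = 1 → k = 1 := by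
    intro k hk hks hkN hkk
    obtain ⟨i, rfl⟩ := exists_s e hK hc hk hkk
    rcases d_norm i with rfl | rfl | h
    · exact s0
    · exfalso
      rw [s3] at hks
      have h1 : s 20 = s 25 := by rw [s20, hks, mul_assoc, Z_sq, mul_one]
      exact absurd (s_inj h1) (by decide)
    · exfalso
      apply k7_sound h
      have h1 : s i * X * (s i)⁻¹ ∈ zpowers X := (mem_normalizer_iff.1 hkN X).1 (mem_zpowers X)
      have h2 : (s i)⁻¹ * X * s i ∈ zpowers X := (mem_normalizer_iff''.1 hkN X).1 (mem_zpowers X)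
      obtain ⟨n, hn⟩ := (conf e hK hc).pow_of_X h2
      have h3 : X * s i = s i * X ^ n := by
        rw [← hn]; group
      have h4 : ∀ n : ℕ, ((X ^ n : M.G) : V ≃ₗ[ℚ] V) (vecU ℚ U vg) = vecU ℚ U vg := by
        intro n
        induction n with
        | zero => rfl
        | succ n ih => rw [pow_succ, coe_mul_apply, fixg_X, ih]
      show (X : V ≃ₗ[ℚ] V) ((s i : V ≃ₗ[ℚ] V) (vecU ℚ U vg)) = (s i : V ≃ₗ[ℚ] V) (vecU ℚ U vg)
      rw [← coe_mul_apply, h3, coe_mul_apply, h4]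
  intro k hk hks hkN
  have hr : r25 ∈ K := mem_K e hK hc r25_P (by rw [r25_sq]; exact s_mem e hK hc 25)
  have h4 : k * k * (k * k) = 1 := by
    have hs : s 25 ∈ K := s_mem e hK hc 25
    have a1 : e ⟨r25, hr⟩ * e ⟨r25, hr⟩ = e ⟨s 25, hs⟩ := by
      rw [← map_mul]; exact congrArg e (Subtype.ext r25_sq)
    have a2 := perm_four (e ⟨r25, hr⟩) (by
      rw [a1]
      intro h
      have h1 : (⟨s 25, hs⟩ : K) = 1 := e.injective (by rw [h, map_one])
      have h2 : s 25 = s 0 := by rw [s0]; exact congrArg Subtype.val h1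
      exact absurd (s_inj h2) (by decide)) (by
      rw [a1, ← map_mul, show (⟨s 25, hs⟩ : K) * ⟨s 25, hs⟩ = 1 from Subtype.ext (s_sq 25), map_one]) (e ⟨k, hk⟩) (by
      rw [a1, ← map_mul, ← map_mul]
      exact congrArg e (Subtype.ext hks))
    rw [← map_mul, ← map_mul, ← map_one e] at a2
    exact congrArg Subtype.val (e.injective a2)
  have h5 : k * k = 1 := by
    refine key (k * k) (mul_mem hk hk) ?_ (mul_mem hkN hkN) h4
    rw [mul_assoc, hks, ← mul_assoc, hks, mul_assoc]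
  exact key k hk hks hkN h5

end

end Cfsg.Agent.H995.LB
end

-- part: H995/LB/Conc_mg
section

end

-- part: H995/LB/ChkF
section
set_option linter.all false

/-!
# `PSL(2, 23)` in `Fi23` in the Baby Monster: kernel checks, X (helper995, for S5524)
-/

set_option autoImplicit false
set_option Elab.async false

namespace Cfsg.Agent.H995.LB

open Cfsg.Agent.Monster.VecEngine Cfsg.Agent.BabyM.Conc Cfsg.Agent.BabyM.WordsInst

/-- The conjugate of the element as a word in the generators of the standard `Fi23`. -/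
def kwX : List Cfsg.Spor.Fi23.Gen :=
  [.f, .g, .h, .e, .c, .d, .a, .h, .i, .h, .d, .c, .b, .h, .e, .c, .d, .g, .e, .f, .h, .e, .c, .d, .h, .i, .c, .a, .b, .e, .d, .h, .c, .d, .e, .f, .g, .j, .g, .e, .f, .h, .e, .c, .d, .h, .i, .c, .a, .b, .e, .d, .h, .c, .d, .e, .f, .g, .f, .d, .h, .e, .d, .c, .a, .b, .c, .d, .h, .i, .e, .d, .h, .c, .d, .e, .f, .h, .d, .c, .b, .e, .d, .c, .a, .b, .h, .e, .c, .d, .h, .i, .h, .e, .c, .d, .h, .j, .h, .c, .h, .g]

theorem fX_in : eqc (wx ++ wg) (wg ++ kw kwX) = true :=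
  BMx.Bridge.chk_of_eqF (by decide +kernel)

end Cfsg.Agent.H995.LB
end
end
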