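import Cfsg.Agent.H995.LB.ChkF
import Cfsg.Agent.BMx.Bridge
import Cfsg.Agent.Prune
set_option linter.all false
prune_inst 0x7f00000000000000000000000000000000000000000000000000000000000000000000000000000000000000000000000000000000000000000000000000000000000000000000000000000000000000003fffffffffffffffffffffffffffbeffbdffffffff

/-!
# `PSL(2, 23)` in `Fi23` in the Baby Monster: kernel checks, T (helper995, for S5524)
-/

set_option autoImplicit false
set_option Elab.async false

namespace Cfsg.Agent.H995.LB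

open Cfsg.Agent.Monster.VecEngine Cfsg.Agent.BabyM.Conc Cfsg.Agent.BabyM.WordsInst

/-- The conjugate of the element as a word in the generators of the standard `Fi23`. -/
def kwT : List Cfsg.Spor.Fi23.Gen :=
  [.j, .h, .b, .a, .c, .d, .c, .e, .h, .b, .a, .c, .d, .e, .h, .i, .h, .d, .c, .f, .e, .g, .f, .e, .d, .c, .h, .d, .e, .b, .a, .c, .d, .h, .i, .h, .d, .e, .f, .e, .g, .b, .c, .d, .c, .h, .j, .g, .f, .e, .d, .c, .h, .d, .e, .b, .a, .c, .i, .h, .d, .c, .e, .b, .c, .d, .h, .f, .e, .g, .d, .c, .f, .e, .d, .h, .i, .e, .d, .h, .c]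

theorem fT_in : eqc ((sw (Sw 25) ++ wd) ++ wg) (wg ++ kw kwT) = true :=
  BMx.Bridge.chk_of_eqF (by decide +kernel)

end Cfsg.Agent.H995.LB
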